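import Cfsg.Agent.Lib.Geometric.LinearSmallTypes
import Cfsg.Agent.Lib.Geometric.TensorPower.Maximal
import Cfsg.Prelude.Def_GeometricClasses

/-! The geometric types of maximal subgroups of `SL₉(q)` from the symplectic type item. -/

set_option autoImplicit false
open Cfsg

namespace CfsgLib.Geometric.SLNine

open CfsgLib.Geometric

/-- All items, given the one for the normalisers of extraspecial groups of order `3⁵`. -/
theorem types_of_extraspecial {F : Type*} [Field F] [Fintype F]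
    (c6 : (∃ p : ℕ, p.Prime ∧ Fintype.card F = p ∧ (p % 3 = 1)) → ∀ R : Subgroup (Matrix.GeneralLinearGroup (Fin 9) F), Cfsg.Geo.IsLinearSymplecticTypeData 3 R → Cfsg.Geo.IsMaximalIn (Cfsg.Geo.specialLinear (Fin 9) F) (Cfsg.Geo.subgroupNormalizer R ⊓ Cfsg.Geo.specialLinear (Fin 9) F)) :
    (∀ W : Submodule F (Fin 9 → F), W ≠ ⊥ → W ≠ ⊤ → Cfsg.Geo.IsMaximalIn (Cfsg.Geo.specialLinear (Fin 9) F) (Cfsg.Geo.subspaceStabilizer W ⊓ Cfsg.Geo.specialLinear (Fin 9) F)) ∧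
    (5 ≤ Fintype.card F → ∀ D : Fin 9 → Submodule F (Fin 9 → F), Cfsg.Geo.IsMDecomposition 1 D → Cfsg.Geo.IsMaximalIn (Cfsg.Geo.specialLinear (Fin 9) F) (Cfsg.Geo.decompositionStabilizer D ⊓ Cfsg.Geo.specialLinear (Fin 9) F)) ∧
    (∀ D : Fin 3 → Submodule F (Fin 9 → F), Cfsg.Geo.IsMDecomposition 3 D → Cfsg.Geo.IsMaximalIn (Cfsg.Geo.specialLinear (Fin 9) F) (Cfsg.Geo.decompositionStabilizer D ⊓ Cfsg.Geo.specialLinear (Fin 9) F)) ∧
    (∀ K : Subalgebra F (Matrix (Fin 9) (Fin 9) F), Cfsg.Geo.IsFieldSubalgebra 3 K → Cfsg.Geo.IsMaximalIn (Cfsg.Geo.specialLinear (Fin 9) F) (Cfsg.Geo.subalgebraNormalizer K ⊓ Cfsg.Geo.specialLinear (Fin 9) F)) ∧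
    (∀ (F₀ : Subfield F) (r : ℕ) (P : Matrix.GeneralLinearGroup (Fin 9) F), r.Prime → Fintype.card F = Nat.card F₀ ^ r → Cfsg.Geo.IsMaximalIn (Cfsg.Geo.specialLinear (Fin 9) F) (Cfsg.Geo.subfieldSubgroup F₀ P ⊓ Cfsg.Geo.specialLinear (Fin 9) F)) ∧
    ((∃ p : ℕ, p.Prime ∧ Fintype.card F = p ∧ (p % 3 = 1)) → ∀ R : Subgroup (Matrix.GeneralLinearGroup (Fin 9) F), Cfsg.Geo.IsLinearSymplecticTypeData 3 R → Cfsg.Geo.IsMaximalIn (Cfsg.Geo.specialLinear (Fin 9) F) (Cfsg.Geo.subgroupNormalizer R ⊓ Cfsg.Geo.specialLinear (Fin 9) F)) ∧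
    (∀ (e : Fin 9 ≃ (Fin 2 → Fin 3)) (P : Matrix.GeneralLinearGroup (Fin 9) F), Cfsg.Geo.IsMaximalIn (Cfsg.Geo.specialLinear (Fin 9) F) (Cfsg.Geo.tensorWreathSubgroup 3 2 e P ⊓ Cfsg.Geo.specialLinear (Fin 9) F)) ∧
    (Odd (Fintype.card F) → ∀ Q : (Fin 9 → F) → F, Cfsg.Geo.IsNondegenerateQuadraticForm Q → Cfsg.Geo.IsMaximalIn (Cfsg.Geo.specialLinear (Fin 9) F) (Cfsg.Geo.quadSimilarityGroup Q ⊓ Cfsg.Geo.specialLinear (Fin 9) F)) ∧
    (∀ (σ : F ≃+* F) (f : (Fin 9 → F) → (Fin 9 → F) → F), Cfsg.Geo.IsUnitaryForm σ f → Cfsg.Geo.IsMaximalIn (Cfsg.Geo.specialLinear (Fin 9) F) (Cfsg.Geo.similarityGroup f ⊓ Cfsg.Geo.specialLinear (Fin 9) F)) := by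
  classical
  refine ⟨fun W h0 h1 => subspaceStabilizer_isMaximalIn h0 h1,
    fun hq D hD => ?_,
    fun D hD => Decomp.decompStab_isMaximalIn_of_two_le hD (by omega) (by omega) (fun h => by omega),
    fun K hK => (Cfsg.Agent.S5886.result 9 3 (by norm_num) (by norm_num) (by norm_num) K hK).2,
    fun F₀ r P hr hc => linearSubfield_isMaximalIn' (by simp) F₀ hr (by rwa [Nat.card_eq_fintype_card]) P,
    c6,
    fun e P => TPow.isMaximalIn le_rfl le_rfl e P,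
    fun ho Q hQ => SmallLinear.quadSimilarity_isMaximalIn 9 (by norm_num) ho Q hQ,
    fun σ f hf => SmallLinear.unitary (by norm_num) hf⟩
  refine Decomp.decompStab_isMaximalIn_of_one_small hD rfl hq (by rw [Fintype.card_fin]; omega) ?_
  by_contra h
  push Not at h
  obtain ⟨x, hx⟩ := IsCyclic.exists_generator (α := Fˣ)
  have ho : orderOf x = Fintype.card F - 1 := by
    rw [orderOf_eq_card_of_forall_mem_zpowers hx, Nat.card_units, Nat.card_eq_fintype_card]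
  have hd := orderOf_dvd_of_pow_eq_one (h.2 x)
  rw [ho, Fintype.card_fin] at hd
  have : CharP F 2 := CharTwo.of_one_ne_zero_of_two_eq_zero one_ne_zero h.1
  obtain ⟨⟨k, hk0⟩, -, hk⟩ := FiniteField.card F 2
  change Fintype.card F = 2 ^ k at hk
  have hle := Nat.le_of_dvd (by omega) hd
  rw [hk] at hd hle hq
  have hk4 : k < 4 := by
    by_contra hk'
    have := Nat.pow_le_pow_right (show 1 ≤ 2 by norm_num) (not_lt.mp hk')
    omega
  interval_cases k <;> revert hd hle hq <;> decide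

end CfsgLib.Geometric.SLNine
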